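import Cfsg.Agent.Tech.IsoTransport
import Cfsg.Agent.FusionSys.Basic

/-!
The image of a subnormal subsystem under a map of the system is subnormal.
-/

set_option autoImplicit false

open Cfsg Cfsg.FusionSystem Cfsg.Agent.FusionSys Cfsg.Agent.Tech.IsoTransport

namespace Cfsg.Agent.FusionSub.ComponentImage

variable {Ω Ω' Ω'' : Type*} [Group Ω] [Group Ω'] [Group Ω'']

section trans

variable {A B : Subgroup Ω} {A' B' : Subgroup Ω'} {B'' : Subgroup Ω''}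
  {U : Subgroup Ω} {U' : Subgroup Ω'} {U'' : Subgroup Ω''}

theorem sImg_comp {A₀ : Subgroup Ω'} {C : Subgroup Ω} {C' : Subgroup Ω''} {σ : A ≃* A'}
    {τ : A₀ ≃* B''} {ρ : C ≃* C'} (hA : U ≤ A) (hC : U ≤ C) (hA₀ : sImg σ U ≤ A₀)
    (hev : ∀ x ∈ U, ev ρ x = ev τ (ev σ x)) {P : Subgroup Ω} (hP : P ≤ U) :
    sImg ρ P = sImg τ (sImg σ P) := by
  ext y
  constructor
  · intro hy
    obtain ⟨x, hx, -, rfl⟩ := mem_sImg.1 hy
    rw [hev x (hP hx)]
    exact ev_mem_sImg ((sImg_mono hP).trans hA₀) (ev_mem_sImg (hP.trans hA) hx)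
  · intro hy
    obtain ⟨z, hz, -, rfl⟩ := mem_sImg.1 hy
    obtain ⟨x, hx, -, rfl⟩ := mem_sImg.1 hz
    rw [← hev x (hP hx)]
    exact ev_mem_sImg (hP.trans hC) hx

variable {A₀ : Subgroup Ω'} {C : Subgroup Ω} {C' : Subgroup Ω''} {σ : A ≃* A'} {τ : A₀ ≃* B''}
  {ρ : C ≃* C'} {E : FusionSystem U} {E' : FusionSystem U'} {E'' : FusionSystem U''}

theorem fwd_comp (h₁ : Corr σ E E') (h₂ : Corr τ E' E'') (hC : U ≤ C)
    (hev : ∀ x ∈ U, ev ρ x = ev τ (ev σ x)) (P : Subgroup Ω) (φ : P →* Ω) (hφ : φ ∈ E.Hom P) :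
    ∃ φ' ∈ E''.Hom (sImg ρ P), ∀ (x : P) (h : ev ρ x ∈ sImg ρ P),
      φ' ⟨ev ρ x, h⟩ = ev ρ (φ x) := by
  obtain ⟨φ₁, hφ₁, h₁e⟩ := h₁.fwd P φ hφ
  obtain ⟨φ₂, hφ₂, h₂e⟩ := h₂.fwd _ φ₁ hφ₁
  have hP : P ≤ U := le_S E hφ
  have heq : sImg ρ P = sImg τ (sImg σ P) :=
    sImg_comp h₁.le hC (h₁.img.le.trans h₂.le) hev hP
  refine ⟨restr heq.le φ₂, restr_mem E'' heq.le hφ₂, fun x h => ?_⟩
  have hx1 : ev σ x ∈ sImg σ P := ev_mem_sImg (hP.trans h₁.le) x.2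
  have e1 : Subgroup.inclusion heq.le ⟨ev ρ x, h⟩ = ⟨ev τ (ev σ x),
      ev_mem_sImg ((le_S E' hφ₁).trans h₂.le) hx1⟩ := Subtype.ext (hev x (hP x.2))
  rw [restr_apply, e1, h₂e ⟨_, hx1⟩, h₁e x hx1, hev _ (map_mem_S E hφ x)]

/-- Correspondences compose. -/
theorem corr_comp (h₁ : Corr σ E E') (h₂ : Corr τ E' E'') (hC : U ≤ C)
    (hev : ∀ x ∈ U, ev ρ x = ev τ (ev σ x)) : Corr ρ E E'' := by
  have himg : sImg ρ U = U'' := by
    rw [sImg_comp h₁.le hC (h₁.img.le.trans h₂.le) hev le_rfl, h₁.img, h₂.img]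
  refine ⟨hC, himg ▸ sImg_le U, himg, fwd_comp h₁ h₂ hC hev,
    fwd_comp h₂.symm h₁.symm (himg ▸ sImg_le U) fun y hy => ?_⟩
  obtain ⟨x, hx, -, rfl⟩ := mem_sImg.1 (himg.ge hy)
  have hmem : ev σ x ∈ U' := h₁.img ▸ ev_mem_sImg h₁.le hx
  rw [ev_symm_ev (hC hx), hev x hx, ev_symm_ev (h₂.le hmem), ev_symm_ev (h₁.le hx)]

end trans

variable {S : Subgroup Ω}

/-- Two images of one system along one isomorphism coincide. -/
theorem corr_unique {A : Subgroup Ω} {A' : Subgroup Ω'} {σ : A ≃* A'} {U : Subgroup Ω}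
    {U' : Subgroup Ω'} {E : FusionSystem U} {E₁ E₂ : FusionSystem U'} (h₁ : Corr σ E E₁)
    (h₂ : Corr σ E E₂) : E₁ = E₂ :=
  fusionSystem_ext fun P => Set.Subset.antisymm (h₁.subsystem h₂ (fun _ => le_rfl) P)
    (h₂.subsystem h₁ (fun _ => le_rfl) P)

theorem ev_ofInjective {T : Subgroup Ω} {γ : T →* Ω'} (hγ : Function.Injective γ) {x : Ω}
    (hx : x ∈ T) : ev (MonoidHom.ofInjective hγ) x = γ ⟨x, hx⟩ := by
  rw [ev_of_mem hx]
  rfl

theorem ev_autGroup {U : Subgroup Ω} (α : MulAut U) {x : Ω} (hx : x ∈ U) :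
    ev (α : U ≃* U) x = ((α ⟨x, hx⟩ : U) : Ω) := ev_of_mem hx

/-- An invariant subsystem is carried to itself by the automorphisms of its group. -/
theorem corr_of_invariant {U : Subgroup Ω} {D : FusionSystem U} {F : FusionSystem S}
    (hD : D.IsInvariantIn F) {α : MulAut U} (hα : α ∈ F.autGroup U) :
    Corr (α : U ≃* U) D D := by
  have aux : ∀ β : MulAut U, β ∈ F.autGroup U → ∀ (P : Subgroup Ω) (φ : P →* Ω), φ ∈ D.Hom P →
      ∃ φ' ∈ D.Hom (sImg (β : U ≃* U) P), ∀ (x : P) (h : ev (β : U ≃* U) x ∈ sImg (β : U ≃* U) P),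
        φ' ⟨ev (β : U ≃* U) x, h⟩ = ev (β : U ≃* U) (φ x) := by
    intro β hβ P φ hφ
    have hP : P ≤ U := le_S D hφ
    obtain ⟨χ, hχ, hχe⟩ := hD.2.2.1 P hP φ hφ β hβ
    refine ⟨χ, hχ, fun x h => ?_⟩
    rw [ev_autGroup β (map_mem_S D hφ x)]
    have hx' : ((β ⟨x, hP x.2⟩ : U) : Ω) ∈ sImg (β : U ≃* U) P := ev_autGroup β (hP x.2) ▸ h
    have e : (⟨ev (β : U ≃* U) x, h⟩ : sImg (β : U ≃* U) P) = ⟨_, hx'⟩ :=
      Subtype.ext (ev_autGroup β (hP x.2))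
    rw [e]
    exact hχe x (map_mem_S D hφ x) hx'
  exact ⟨le_rfl, le_rfl, sImg_top, aux α hα, aux α⁻¹ (inv_mem hα)⟩

/-- A map on the whole group carries the system to itself. -/
theorem corr_self {F : FusionSystem S} {γ : S →* Ω} (hγ : γ ∈ F.Hom S) (hr : γ.range = S)
    {σ : S ≃* S} (hσ : ∀ x : S, (σ x : Ω) = γ x) : Corr σ F F := by
  have hσF : IsIso F σ := (isIso_iff_mem hσ).2 hγ
  have aux : ∀ τ : S ≃* S, IsIso F τ → ∀ (P : Subgroup Ω) (φ : P →* Ω), φ ∈ F.Hom P →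
      ∃ φ' ∈ F.Hom (sImg τ P), ∀ (x : P) (h : ev τ x ∈ sImg τ P),
        φ' ⟨ev τ x, h⟩ = ev τ (φ x) := by
    intro τ hτ P φ hφ
    have hP : P ≤ S := le_S F hφ
    let ψ : ↥(sImg τ P) →* Ω := (S.subtype.comp τ.symm.toMonoidHom).comp
      (Subgroup.inclusion (sImg_le P))
    have hψ : ψ ∈ F.Hom (sImg τ P) := restr_mem F (sImg_le P) (show _ ∈ F.Hom S from hτ.symm)
    have hψP : ∀ y, ψ y ∈ P := fun y => by
      obtain ⟨x, hx, rfl⟩ := exists_ev y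
      show ((τ.symm ⟨ev τ x, _⟩ : S) : Ω) ∈ P
      rw [← ev_coe (σ := τ.symm), ev_symm_ev (hP x.2)]
      exact x.2
    have hc := F.comp_mem hψ hφ hψP
    refine ⟨_, comp_mem' F (χ := (S.subtype.comp τ.toMonoidHom).comp
      ((φ.comp (ψ.codRestrict P hψP)).codRestrict S fun y => map_mem_S F hφ _)) hc
      (show _ ∈ F.Hom S from hτ) (fun y => map_mem_S F hφ _) (fun y => rfl), fun x h => ?_⟩
    refine Eq.trans ?_ (ev_coe (σ := τ) ⟨φ x, map_mem_S F hφ x⟩).symm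
    show ((τ ⟨φ (ψ.codRestrict P hψP ⟨ev τ x, h⟩), _⟩ : S) : Ω) = _
    refine congrArg (fun z : S => ((τ z : S) : Ω)) (Subtype.ext (congrArg φ (Subtype.ext ?_)))
    show ((τ.symm ⟨ev τ x, _⟩ : S) : Ω) = x
    rw [← ev_coe (σ := τ.symm), ev_symm_ev (hP x.2)]
  exact ⟨le_rfl, le_rfl, sImg_top, aux σ hσF, aux σ.symm hσF.symm⟩

/-- A subnormal subsystem lives on a subgroup. -/
theorem le_of_subnormal {p : ℕ} {T V : Subgroup Ω} {C : FusionSystem T} {F : FusionSystem V}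
    (h : C.IsSubnormalIn F p) : T ≤ V := by
  induction h with
  | refl => exact le_rfl
  | step _ h₂ ih => exact ih.trans h₂.1.2.2.2.1.1

/-- The image of a subnormal subsystem under a map of the system is subnormal. -/
theorem subnormal_image_hom {p : ℕ} {T V : Subgroup Ω} {C : FusionSystem T} {F : FusionSystem V}
    (h : C.IsSubnormalIn F p) : ∀ [Fact p.Prime], IsPGroup p V → Finite V →
      ∀ (γ : T →* Ω) (_ : γ ∈ F.Hom T) (hinj : Function.Injective γ)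
        (E : FusionSystem γ.range), Corr (MonoidHom.ofInjective hinj) C E →
        E.IsSubnormalIn F p := by
  induction h with
  | @refl F p =>
    intro _ _ hfin γ hγ hinj E hE
    haveI := hfin
    have hr : γ.range = T :=
      range_eq_of_image_le hinj (range_le_S F hγ) le_rfl
    obtain ⟨σ, hσ⟩ : ∃ σ : T ≃* T, ∀ x : T, (σ x : Ω) = γ x :=
      ⟨(MonoidHom.ofInjective hinj).trans (MulEquiv.subgroupCongr hr), fun x => rfl⟩
    have h1 : Corr (MulEquiv.refl T) F F := corr_self (subtype_mem F le_rfl) (Subgroup.range_subtype T) fun x => rfl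
    have h2 : Corr σ F E := corr_comp h1 hE le_rfl fun x hx => by
      rw [ev_of_mem hx, hσ, show ev (MulEquiv.refl T) x = x from ev_of_mem hx,
        ev_ofInjective hinj hx]
    have h3 := corr_self hγ hr hσ
    clear hE
    revert E
    rw [hr]
    intro E h2
    rw [corr_unique h2 h3]
    exact .refl _ _
  | @step U V C D F p hCD hD ih =>
    intro _ hV hfin γ hγ hinj E hE
    haveI := hfin
    have hUV : U ≤ V := hD.1.2.2.2.1.1
    have hTU : T ≤ U := le_of_subnormal hCD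
    haveI : Finite U := finite_of_le ‹_› hUV
    obtain ⟨α, hα, φ₀, hφ₀, he⟩ := hD.1.2.2.2.2.2 T hTU γ hγ
    have hinj₀ : Function.Injective φ₀ := D.injective_of_mem hφ₀
    have hC₀ := corr_imgSys (MonoidHom.ofInjective hinj₀) (le_refl T) (sImg_top) C
    have hs₀ := ih (hV.to_le hUV) ‹_› φ₀ hφ₀ hinj₀ _ hC₀
    obtain ⟨R, C', hC', hs'⟩ := subnormal_image hs₀ (hV.to_le hUV) ‹_› D
      (corr_of_invariant hD.1.2.2 hα)
    have hρ : Corr (MonoidHom.ofInjective hinj) C C' := corr_comp hC₀ hC' le_rfl fun x hx => by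
      have hm := map_mem_S D hφ₀ ⟨x, hx⟩
      rw [ev_ofInjective hinj hx, ev_ofInjective hinj₀ hx, ev_autGroup α hm]
      exact he ⟨x, hx⟩ hm
    obtain rfl : R = γ.range := hρ.img.symm.trans hE.img
    rw [corr_unique hE hρ]
    exact .step hs' hD

end Cfsg.Agent.FusionSub.ComponentImage
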