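import Cfsg.Agent.FusionAlperin.Alperin
import Cfsg.Agent.FusionAux.Induction
import Cfsg.Agent.FusionSub.Basic
import Cfsg.Agent.Cores.Residual

/-!
The hyperfocal subgroup acts on a strongly closed subgroup `T` through `O^p(Aut_F(T)) Inn(T)`.
-/

set_option autoImplicit false

open Cfsg Cfsg.FusionSystem Cfsg.Agent.FusionSys Cfsg.Agent.FusionAlperin

namespace Cfsg.Agent.FusionSub

variable {Ω : Type*} [Group Ω] {S : Subgroup Ω} [Finite S] {p : ℕ} [Fact p.Prime]

theorem hyperfocal_action_le (hS : IsPGroup p S) {F : FusionSystem S} (hF : F.IsSaturated p)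
    {T : Subgroup Ω} (hT : F.StronglyClosed T) {x : Ω} (hx : x ∈ F.hyperfocalSubgroup p) :
    ∃ α ∈ ((pResidual p (F.autGroup T)).map (F.autGroup T).subtype ⊔ Inn T : Subgroup (MulAut T)),
      ∀ t : T, ((α t : T) : Ω) = x * t * x⁻¹ := by
  classical
  have hTfin : Finite T := finite_of_le ‹_› hT.1
  have hnormS : S ≤ Subgroup.normalizer (T : Set Ω) := sc_le_normalizer hT
  set A := F.autGroup T
  have hI : ((Inn T).subgroupOf A).Normal := inn_normal_autGroup F T
  set K : Subgroup A := pResidual p A ⊔ (Inn T).subgroupOf A with hKdef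
  have hKn : K.Normal := Subgroup.sup_normal _ _
  have hQp : IsPGroup p (A ⧸ K) := (Cores.pResidual_le_iff).1 le_sup_left
  -- the action of `S` on `T`
  let c : S →* A ⧸ K := (QuotientGroup.mk' K).comp
    ((T.normalizerMonoidHom.comp (Subgroup.inclusion hnormS)).codRestrict A fun s =>
      (mem_autGroup F hT.1).2 (conj_mem' F hT.1 s.2 fun _ => rfl))
  have hcT : ∀ t (ht : t ∈ T), c ⟨t, hT.1 ht⟩ = 1 := fun t ht =>
    (QuotientGroup.eq_one_iff _).2 (Subgroup.mem_sup_right ⟨⟨t, ht⟩, MulEquiv.ext fun y =>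
      Subtype.ext rfl⟩)
  -- maps whose effect on the action is an inner automorphism of the quotient
  let good : ∀ P : Subgroup Ω, (P →* Ω) → Prop := fun P φ => ∃ β : A ⧸ K,
    ∀ (x : P) (hx : (x : Ω) ∈ S) (hy : φ x ∈ S), c ⟨φ x, hy⟩ = β * c ⟨x, hx⟩ * β⁻¹
  let G' : FusionSystem S := subSystem F good
    (fun {P g} hP hg => ⟨c ⟨g, hg⟩, fun x hx hy => by
      rw [← map_inv, ← map_mul, ← map_mul]; rfl⟩)
    (fun {P Q φ ψ} hφ hψ hgφ hgψ h => by
      obtain ⟨β, hβ⟩ := hgφ
      obtain ⟨γ, hγ⟩ := hgψ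
      refine ⟨γ * β, fun x hx hy => ?_⟩
      have h1 := hγ ⟨φ x, h x⟩ (map_mem_S F hφ x) hy
      refine h1.trans ?_
      rw [show c ⟨((⟨φ x, h x⟩ : Q) : Ω), map_mem_S F hφ x⟩ = c ⟨φ x, map_mem_S F hφ x⟩ from rfl,
        hβ x hx]
      group)
    (fun {P φ} hφ hgφ ψ hψ he => by
      obtain ⟨β, hβ⟩ := hgφ
      refine ⟨β⁻¹, fun y hx hy => ?_⟩
      obtain ⟨z, hz⟩ := y.2
      have e1 : ψ y = (z : Ω) := by
        rw [← he z]; exact congrArg ψ (Subtype.ext hz.symm)
      have h2 : c ⟨(y : Ω), hx⟩ = c ⟨φ z, map_mem_S F hφ z⟩ := congrArg c (Subtype.ext hz.symm)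
      rw [h2, hβ z (le_S F hφ z.2), show c ⟨ψ y, hy⟩ = c ⟨z, le_S F hφ z.2⟩ from
        congrArg c (Subtype.ext e1)]
      group)
  have hle : F ≤ G' := by
    refine hom_subset_of_step hS hF G' fun P hP ih => ?_
    intro α hα
    refine (mem_autGroup G' hP.1).2 ⟨autGroup_mem_hom F hP.1 hα, ?_⟩
    have hαm := autGroup_mem_hom F hP.1 hα
    by_cases hTP : T ≤ P
    · -- exact transport on `T`
      have hr : (restr hTP (P.subtype.comp α.toMonoidHom)).range = T := by
        refine eq_of_le_of_card_le ?_ (le_of_eq ?_)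
        · rintro _ ⟨t, rfl⟩
          exact sc_map_mem hT hαm (x := ⟨t, hTP t.2⟩) t.2
        · exact Nat.card_congr (MonoidHom.ofInjective
            (F.injective_of_mem (restr_mem F hTP hαm))).toEquiv
      have ha := toIso_mem_autGroup F (restr_mem F hTP hαm) hr
      refine ⟨QuotientGroup.mk ⟨_, ha⟩, fun x hx hy => ?_⟩
      rw [← QuotientGroup.mk_inv]
      show QuotientGroup.mk _ = QuotientGroup.mk _ * QuotientGroup.mk _ * QuotientGroup.mk _
      rw [← QuotientGroup.mk_mul, ← QuotientGroup.mk_mul]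
      refine congrArg QuotientGroup.mk (Subtype.ext (MulEquiv.ext fun t => Subtype.ext ?_))
      set a := toIso F (restr_mem F hTP hαm) hr with hadef
      have hae : ∀ u : T, ((a u : T) : Ω) = ((α ⟨u, hTP u.2⟩ : P) : Ω) := fun u => rfl
      show ((α x : P) : Ω) * (t : Ω) * ((α x : P) : Ω)⁻¹ = ((a (T.normalizerMonoidHom _ (a.symm t)) : T) : Ω)
      rw [hae]
      have ht : (t : Ω) = ((α ⟨a.symm t, hTP (a.symm t).2⟩ : P) : Ω) := by
        rw [← hae]; exact congrArg Subtype.val (a.apply_symm_apply t).symm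
      conv_lhs => rw [ht, ← Subgroup.coe_inv, ← Subgroup.coe_mul, ← Subgroup.coe_mul, ← map_inv,
        ← map_mul, ← map_mul]
      exact congrArg (fun z : P => ((α z : P) : Ω)) (Subtype.ext rfl)
    · -- split off the automorphisms moving `P` within `T`-cosets
      have hPfin : Finite P := finite_of_le ‹_› hP.1
      have hpres : ∀ (β : F.autGroup P) (y : P), (y : Ω) ∈ T → (((β : MulAut P) y : P) : Ω) ∈ T :=
        fun β y hy => sc_map_mem hT (autGroup_mem_hom F hP.1 β.2) hy
      let K₀ : Subgroup (F.autGroup P) :=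
      { carrier := {β | ∀ y : P, (y : Ω)⁻¹ * (((β : MulAut P) y : P) : Ω) ∈ T}
        one_mem' := fun y => by simp
        mul_mem' := fun {β γ} hβ hγ y => by
          have := T.mul_mem (hγ y) (hβ ((γ : MulAut P) y))
          simpa [mul_assoc] using this
        inv_mem' := fun {β} hβ y => by
          have := T.inv_mem (hβ ((β : MulAut P)⁻¹ y))
          simpa [mul_assoc] using this }
      have : K₀.Normal := ⟨fun β hβ γ y => by
        have h1 : (((((γ : MulAut P)⁻¹) y : P) : Ω))⁻¹ *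
            (((β : MulAut P) ((γ : MulAut P)⁻¹ y) : P) : Ω) ∈ T := hβ _
        have h2 := hpres γ (((γ : MulAut P)⁻¹ y)⁻¹ * (β : MulAut P) ((γ : MulAut P)⁻¹ y))
          (by simpa using h1)
        simpa [map_mul] using h2⟩
      obtain ⟨h, k, N, N', e, hPN, hhk, hkK, he, -, hNn, hag, hext⟩ :=
        FusionAux.exists_frattini_extend hS hF hP K₀ ⟨α, hα⟩
      -- `N` is larger than `P`
      have hlt : P < N := by
        refine lt_of_le_of_ne hPN fun hPN' => ?_
        have hPT : P < P ⊔ T := left_lt_sup.2 hTP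
        have hPTS : P ⊔ T ≤ S := sup_le hP.1 hT.1
        have : Finite ↥(P ⊔ T) := finite_of_le ‹_› hPTS
        obtain ⟨g, hg, hgN, hgP⟩ := exists_normalizer_mem_not_mem (hS.to_le hPTS) hPT
        rw [← SetLike.mem_coe, Subgroup.coe_mul_of_left_le_normalizer_right P T
          (hP.1.trans hnormS)] at hg
        obtain ⟨q, hq, t, ht, rfl⟩ := hg
        have htN : t ∈ Subgroup.normalizer (P : Set Ω) := by
          have := mul_mem (inv_mem (Subgroup.le_normalizer hq)) hgN
          simpa using this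
        let β : F.autGroup P := ⟨P.normalizerMonoidHom ⟨t, htN⟩,
          (mem_autGroup F hP.1).2 (conj_mem' F hP.1 (hT.1 ht) fun _ => rfl)⟩
        have hβ : β ∈ K₀ := fun y => by
          show (y : Ω)⁻¹ * (t * y * t⁻¹) ∈ T
          have h1 : (y : Ω)⁻¹ * t * (y : Ω) ∈ T := by
            simpa using sc_conj_mem hT (S.inv_mem (hP.1 y.2)) ht
          simpa [mul_assoc] using T.mul_mem h1 (T.inv_mem ht)
        have htP : t ∈ N := hext t ⟨hT.1 ht, htN⟩ ⟨β, hβ, fun _ => rfl⟩
        rw [← hPN'] at htP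
        exact hgP (mul_mem hq htP)
      have hNS : N ≤ S := hNn.trans (normalizerIn_le P)
      obtain ⟨β, hβ⟩ :=
        (ih N hNS (card_lt_of_lt hNS hlt) he : N'.subtype.comp e.toMonoidHom ∈ G'.Hom N).2
      refine ⟨β, fun x hx hy => ?_⟩
      have hkx : (((k : MulAut P) x : P) : Ω) ∈ S := hP.1 (SetLike.coe_mem _)
      have hd : (x : Ω)⁻¹ * (((k : MulAut P) x : P) : Ω) ∈ T := hkK x
      have hckx : c ⟨_, hkx⟩ = c ⟨x, hx⟩ := by
        rw [show (⟨(((k : MulAut P) x : P) : Ω), hkx⟩ : S) = ⟨x, hx⟩ * ⟨_, hT.1 hd⟩ from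
          Subtype.ext (by simp), map_mul, hcT _ hd, mul_one]
      rw [← hckx]
      refine Eq.trans (congrArg c (Subtype.ext ?_))
        (hβ ⟨_, hPN ((k : MulAut P) x).2⟩ hkx
          (le_S F he.symm (e ⟨_, hPN ((k : MulAut P) x).2⟩).2))
      show ((α x : P) : Ω) = (e ⟨(((k : MulAut P) x : P) : Ω), _⟩ : Ω)
      rw [hag, show α = (h : MulAut P) * (k : MulAut P) from congrArg Subtype.val hhk]
      rfl
  -- consequence for the automorphisms of order prime to `p`
  have hkey : ∀ y ∈ F.hyperfocalSubgroup p, ∃ hy : y ∈ S, c ⟨y, hy⟩ = 1 := by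
    intro y hy
    suffices F.hyperfocalSubgroup p ≤ c.ker.map S.subtype by
      obtain ⟨s, hs, rfl⟩ := this hy
      exact ⟨s.2, hs⟩
    refine (Subgroup.closure_le _).2 ?_
    rintro _ ⟨P, α, z, hP, hα, rfl⟩
    suffices hz : ∀ (z : P),
        c ⟨(((α : MulAut P) z : P) : Ω), hP (SetLike.coe_mem _)⟩ = c ⟨z, hP z.2⟩ by
      refine ⟨⟨z, hP z.2⟩⁻¹ * ⟨_, hP ((α : MulAut P) z).2⟩, ?_, rfl⟩
      rw [SetLike.mem_coe, MonoidHom.mem_ker, map_mul, map_inv, hz z, inv_mul_cancel]
    clear z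
    revert hα α
    intro α hα
    induction hα using Subgroup.closure_induction with
    | one => intro z; exact congrArg c (Subtype.ext (by simp))
    | mul a b _ _ ha hb =>
      intro z
      refine Eq.trans ?_ ((ha ((b : MulAut P) z)).trans (hb z))
      exact congrArg c (Subtype.ext rfl)
    | inv a _ ha =>
      intro z
      refine Eq.trans ?_ ((ha ((a : MulAut P)⁻¹ z)).symm.trans (congrArg c (Subtype.ext ?_)))
      · exact congrArg c (Subtype.ext rfl)
      · show (((a : MulAut P) ((a : MulAut P)⁻¹ z) : P) : Ω) = _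
        rw [MulAut.apply_inv_self]
    | mem a hcop =>
      intro z
      obtain ⟨β, hβ⟩ := (hle P (autGroup_mem_hom F hP a.2)).2
      have hpow : ∀ (i : ℕ) (w : P),
          c ⟨((((a : MulAut P) ^ i) w : P) : Ω), hP (SetLike.coe_mem _)⟩ =
            β ^ i * c ⟨w, hP w.2⟩ * (β ^ i)⁻¹ := by
        intro i
        induction i with
        | zero =>
          intro w
          rw [pow_zero β, one_mul, inv_one, mul_one]
          exact congrArg c (Subtype.ext rfl)
        | succ i ih =>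
          intro w
          have h1 := hβ (((a : MulAut P) ^ i) w) (hP (SetLike.coe_mem _))
            (hP (SetLike.coe_mem _))
          refine Eq.trans (congrArg c (Subtype.ext ?_)) (h1.trans ?_)
          · rw [pow_succ']; rfl
          · rw [ih w]; rw [pow_succ']; group
      have hfix : β ^ orderOf a ∈ Subgroup.centralizer {c ⟨z, hP z.2⟩} := by
        rw [Subgroup.mem_centralizer_singleton_iff]
        have h1 := hpow (orderOf a) z
        have h2 : (a : MulAut P) ^ orderOf a = 1 := by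
          rw [← Subgroup.orderOf_coe, pow_orderOf_eq_one]
        rw [show (⟨((((a : MulAut P) ^ orderOf a) z : P) : Ω), hP (SetLike.coe_mem _)⟩ : S) =
          ⟨z, hP z.2⟩ from Subtype.ext (by rw [h2]; rfl)] at h1
        exact (mul_inv_eq_iff_eq_mul.1 h1.symm)
      obtain ⟨j, hj⟩ := hQp β
      have hb : β ∈ Subgroup.centralizer {c ⟨z, hP z.2⟩} := by
        have hg : Nat.gcd (orderOf a) (p ^ j) = 1 := Nat.Coprime.pow_right j hcop
        have h3 : β ^ ((Nat.gcd (orderOf a) (p ^ j) : ℕ) : ℤ) ∈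
            Subgroup.centralizer {c ⟨z, hP z.2⟩} := by
          rw [Nat.gcd_eq_gcd_ab, zpow_add, zpow_mul, zpow_mul, zpow_natCast, zpow_natCast, hj,
            one_zpow, mul_one]
          exact zpow_mem hfix _
        rwa [hg, Nat.cast_one, zpow_one] at h3
      rw [Subgroup.mem_centralizer_singleton_iff] at hb
      refine (hβ z (hP z.2) (hP (SetLike.coe_mem _))).trans ?_
      rw [mul_inv_eq_iff_eq_mul]
      exact hb
  obtain ⟨hxS, hxc⟩ := hkey x hx
  have hxK := (QuotientGroup.eq_one_iff _).1 hxc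
  have hmap := Subgroup.mem_map_of_mem A.subtype hxK
  rw [hKdef, Subgroup.map_sup, Subgroup.map_subgroupOf_eq_of_le (inn_le_autGroup F hT.1)] at hmap
  exact ⟨_, hmap, fun t => rfl⟩

end Cfsg.Agent.FusionSub
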